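import Cfsg.Agent.BlockB.Height
import Cfsg.Agent.Classical.PSL2
import Cfsg.Agent.Classical.SmallIso
import Cfsg.Agent.Perm.Zass3
import Cfsg.Agent.Small.ZassSylow
import Cfsg.Agent.Small.Count
import Cfsg.Agent.CIT.Spec
import Cfsg.Agent.Fgs2.Basic

/-!
# `PSL₂(p²)` is determined by the multiset of its character degrees
-/

set_option autoImplicit false

namespace CF.Dg
open Subgroup MulAction Cfsg CF.Small CF.Perm CF.Classical CF.Char CF.BlockB
open scoped MatrixGroups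

variable {G : Type*} [Group G] [Finite G]

theorem van {a b r : ℕ} (hr : r.Prime) (c : Nat.card G = a * b) (rb : ¬ r ∣ b) {χ : IrrCharacter G}
    (h : a ∣ charDegree (χ : G → ℂ)) {g : G} (hg : r ∣ orderOf g) : (χ : G → ℂ) g = 0 := by
  refine irr_eq_zero_of_defect_zero hr ((not_dvd_div_iff hr χ).1 fun k => rb (k.trans ?_)) hg
  have d := irr_one_dvd_card χ.2 (irr_charDegree_eq χ).symm
  obtain ⟨n, hn⟩ := h
  obtain ⟨m, hm⟩ := d
  have : 0 < charDegree (χ : G → ℂ) * m := hm ▸ Nat.card_pos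
  rw [hm, Nat.mul_div_cancel_left _ (Nat.pos_of_mul_pos_right this)]
  rw [hn, c, mul_assoc] at hm
  rw [hn, mul_assoc] at this
  exact ⟨n, by rw [Nat.eq_of_mul_eq_mul_left (Nat.pos_of_mul_pos_right this) hm, mul_comm]⟩

theorem no_elt {m : ℕ} (m1 : 1 < m) {g : G} (g1 : g ≠ 1) (h : ∀ χ : IrrCharacter G, (χ : G → ℂ) = (fun _ => 1) ∨
    (χ : G → ℂ) g = 0 ∨ m ∣ charDegree (χ : G → ℂ)) : False := by
  classical
  have s := sum_irr_one_mul_of_ne g1
  rw [← Finset.add_sum_erase _ _ (Finset.mem_univ (⟨_, irr_one⟩ : IrrCharacter G))] at s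
  have m0 : (m : ℂ) ≠ 0 := by exact_mod_cast (by omega)
  refine absurd (Nat.le_of_dvd one_pos (dvd_of_isIntegral_div (a := 1) (b := m) (by omega) ?_)) (by omega)
  rw [show ((1 : ℕ) : ℂ) / m = -∑ χ ∈ Finset.univ.erase (⟨_, irr_one⟩ : IrrCharacter G),
    (χ : G → ℂ) 1 * (χ : G → ℂ) g / m by rw [← Finset.sum_div, ← neg_div]; congr 1; simpa using eq_neg_of_add_eq_zero_left s]
  refine (IsIntegral.sum _ fun χ hχ => ?_).neg
  rcases h χ with k | k | ⟨n, k⟩
  · exact absurd (Subtype.ext k) (Finset.ne_of_mem_erase hχ)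
  · rw [k, mul_zero, zero_div]; exact isIntegral_zero
  · rw [← irr_charDegree_eq, k, Nat.cast_mul, mul_assoc, mul_div_cancel_left₀ _ m0]
    exact (isIntegral_natCast n).mul (char_isIntegral (irr_isCharacter χ.2) g)

theorem exists_equiv {L : Type*} [Group L] [Finite L] (h : ∀ d : ℕ, Nat.card {χ : IrrCharacter G // (χ : G → ℂ) 1 = d} =
    Nat.card {χ : IrrCharacter L // (χ : L → ℂ) 1 = d}) : Nat.card G = Nat.card L ∧
      ∃ e : IrrCharacter G ≃ IrrCharacter L, ∀ χ, charDegree (e χ : L → ℂ) = charDegree (χ : G → ℂ) := by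
  let e : IrrCharacter G ≃ IrrCharacter L := .ofFiberEquiv (f := fun χ => charDegree (χ : G → ℂ))
    (g := fun χ => charDegree (χ : L → ℂ)) fun d => (Finite.card_eq.1 (by
      simp only [← irr_charDegree_eq, Nat.cast_inj] at h; exact h d)).some
  have he : ∀ χ, charDegree (e χ : L → ℂ) = charDegree (χ : G → ℂ) := fun χ =>
    Equiv.ofFiberEquiv_map (g := fun χ : IrrCharacter L => charDegree (χ : L → ℂ)) _ χ
  refine ⟨Nat.cast_injective (R := ℂ) ?_, e, he⟩
  rw [← sum_irr_one_sq, ← sum_irr_one_sq, ← e.sum_comp]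
  simp only [← irr_charDegree_eq, he]

variable {F : Type*} [Field F] [Finite F]

theorem deg_cases (h4 : Nat.card F % 4 ≠ 3) (χ : IrrCharacter PSL(2, F)) : (χ : PSL(2, F) → ℂ) = (fun _ => 1) ∨
    Nat.card F ∣ charDegree (χ : PSL(2, F) → ℂ) ∨ Nat.card F - 1 ∣ charDegree (χ : PSL(2, F) → ℂ) ∨
      (Nat.card F + 1) / Nat.gcd 2 (Nat.card F - 1) ∣ charDegree (χ : PSL(2, F) → ℂ) := by
  obtain ⟨g₀, h₀⟩ := exists_noEig F
  obtain ⟨n, hn, e⟩ := h₀.irr_SL2_deg (irr_comp_of_surjective χ.2 _ slToPSL_surjective)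
  have q1 := Finite.one_lt_card (α := F)
  rw [charDegree_eq_of_eq (χ := (χ : PSL(2, F) → ℂ)) (n := n) (by simpa using hn)]
  rcases e with e | e | e | e | e | ⟨e, θ, χ', h1, h2, H⟩
  · exact .inl (funext fun x => by obtain ⟨s, rfl⟩ := slToPSL_surjective x; exact congrFun e.2 s)
  · exact .inr (.inl (e.1 ▸ dvd_rfl))
  · refine .inr (.inr (.inr (e.1.symm ▸ Nat.div_dvd_of_dvd ?_)))
    rw [show Nat.card F + 1 = Nat.card F - 1 + 2 by omega]
    exact (Nat.gcd_dvd_right _ _).add (Nat.gcd_dvd_left _ _)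
  · exact .inr (.inr (.inl (e.1 ▸ dvd_rfl)))
  · refine .inr (.inr (.inr ?_))
    rw [← e.1, Nat.gcd_eq_left (by omega : 2 ∣ Nat.card F - 1), Nat.mul_div_cancel_left _ two_pos]
  have h3 := h₀.cuspSL_scal θ (t := ⟨-1, neg_one_mem_nsT1 g₀⟩) (isScal_toGL.2 (Or.inr rfl))
  have h5 := H.two_mul_one
  rw [← H.two_mul_neg_one] at h3
  simp only [slToPSL_eq_one_iff.2 (Or.inr rfl), map_one, h₀.cuspSL_one] at h3 h5
  rw [h5, left_eq_mul₀ (sub_ne_zero.2 (by exact_mod_cast q1.ne')), Units.val_eq_one, h₀.linear_eq_one_iff h1 h2,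
    Subtype.ext_iff] at h3
  exact absurd (((Odd.neg_one_pow (by rw [Nat.odd_iff]; omega)).symm.trans h3 :)) (neg_one_ne_one_SL2 H.two)

theorem main {p : ℕ} (hp : p.Prime) (hF : Nat.card F = p ^ 2)
    (h : ∀ d : ℕ, Nat.card {χ : IrrCharacter G // (χ : G → ℂ) 1 = d} =
      Nat.card {χ : IrrCharacter PSL(2, F) // (χ : PSL(2, F) → ℂ) 1 = d}) : Nonempty (G ≃* PSL(2, F)) := by
  have := Fact.mk hp
  have := Fintype.ofFinite F
  obtain ⟨c, e, he⟩ := exists_equiv h
  have c' := card_PSL_two' (F := F)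
  have q4 : 4 ≤ Nat.card F := hF ▸ Nat.pow_le_pow_left hp.two_le 2
  have h4 : Nat.card F % 4 ≠ 3 := by
    rw [hF, Nat.pow_mod]; have := Nat.mod_lt p four_pos; interval_cases p % 4 <;> simp
  have dc := deg_cases h4
  have pq : p ∣ Nat.card F := hF ▸ dvd_pow_self p two_ne_zero
  obtain ⟨a, ha⟩ : ∃ a, Nat.card F = a + 1 := ⟨Nat.card F - 1, by omega⟩
  obtain ⟨b, hb⟩ : Nat.gcd 2 a ∣ a + 2 := (Nat.dvd_add_right (Nat.gcd_dvd_right _ _)).2 (Nat.gcd_dvd_left _ _)
  have g0 := Nat.gcd_pos_of_pos_left a two_pos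
  have g2 : a + 2 = b ∧ a % 2 = 1 ∨ a + 2 = 2 * b ∧ a % 2 = 0 := by
    rw [Nat.gcd_rec] at hb; rcases Nat.mod_two_eq_zero_or_one a with k | k <;> simp [k] at hb <;> omega
  rw [← c, ha, Nat.add_sub_cancel, show (a + 1) ^ 2 - 1 = (a + 2) * a by rw [Nat.sub_eq_iff_eq_add (by nlinarith)]; ring,
    hb, mul_left_comm, mul_assoc] at c'
  have c1 : Nat.card G = (a + 1) * (b * a) := Nat.eq_of_mul_eq_mul_left g0 (by rw [c']; ring)
  simp only [ha, Nat.add_sub_cancel, add_assoc, one_add_one_eq_two, hb, Nat.mul_div_cancel_left _ g0] at dc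
  have tr : ∀ χ : IrrCharacter G, (e χ : PSL(2, F) → ℂ) = (fun _ => 1) ∨ 1 < charDegree (χ : G → ℂ) := fun χ => by
    rw [← he]
    refine (dc (e χ)).imp_right fun k => ?_
    have p0 : 0 < charDegree (e χ : PSL(2, F) → ℂ) := Nat.pos_of_dvd_of_pos
      (irr_one_dvd_card (e χ).2 (irr_charDegree_eq _).symm) Nat.card_pos
    rcases k with k | k | k <;> have := Nat.le_of_dvd p0 k <;> omega
  have dG : ∀ χ : IrrCharacter G, (χ : G → ℂ) = (fun _ => 1) ∨ a + 1 ∣ charDegree (χ : G → ℂ) ∨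
      a ∣ charDegree (χ : G → ℂ) ∨ b ∣ charDegree (χ : G → ℂ) := fun χ => he χ ▸ (dc (e χ)).imp_left fun k =>
    congrArg Subtype.val (e.injective (a₂ := ⟨_, irr_one⟩) (Subtype.ext (k.trans ((tr _).resolve_right (by
      simp [charDegree])).symm)))
  have pd : ¬ p ∣ b * a := fun k => by
    have k1 : p ∣ (a + 2) * a := hb ▸ mul_assoc _ b a ▸ k.mul_left _
    have k2 : p ∣ (a + 2) * a + 1 := ⟨(Nat.card F / p) * (a + 1), by rw [← mul_assoc, Nat.mul_div_cancel' pq, ha]; ring⟩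
    exact hp.one_lt.ne' (Nat.dvd_one.1 ((Nat.dvd_add_right k1).1 k2))
  have ab : ∀ r, r.Prime → r ∣ a → ¬ r ∣ b := fun r hr ra rb => by
    obtain rfl := (Nat.prime_dvd_prime_iff_eq hr Nat.prime_two).1 ((Nat.dvd_add_right ra).1 (hb ▸ rb.mul_left _))
    omega
  have no : ∀ g : G, ∀ r, r.Prime → r ≠ p → p ∣ orderOf g → ¬ r ∣ orderOf g := fun g r hr rp h1 h2 => by
    have g1 : g ≠ 1 := by rintro rfl; simp [hp.ne_one] at h1
    have rq : ¬ r ∣ a + 1 := fun k => rp ((Nat.prime_dvd_prime_iff_eq hr hp).1 (hr.dvd_of_dvd_pow (hF ▸ ha ▸ k)))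
    have v := fun χ k => van (χ := χ) hp c1 pd k h1
    rcases (hr.dvd_mul.1 ((hr.dvd_mul.1 (c1 ▸ h2.trans (orderOf_dvd_natCard g))).resolve_left rq)) with k | k
    · exact no_elt (m := a) (by omega) g1 fun χ => (dG χ).imp_right fun l => l.elim (.inl <| v χ ·) fun l => l.symm.imp_left
        (van (b := (a + 1) * a) hr (by rw [c1]; ring) (hr.not_dvd_mul rq (ab r hr · k)) · h2)
    · exact no_elt (m := b) (by omega) g1 fun χ => (dG χ).imp_right fun l => l.elim (.inl <| v χ ·) fun l => l.imp_left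
        (van (b := (a + 1) * b) hr (by rw [c1]; ring) (hr.not_dvd_mul rq (ab r hr k)) · h2)
  obtain ⟨P⟩ : Nonempty (Sylow p G) := inferInstance
  have cP : Nat.card (P : Subgroup G) = p ^ 2 := by
    rw [P.card_eq_multiplicity, c1, ← ha, hF, Nat.factorization_mul (pow_pos hp.pos 2).ne' (by rintro k; simp [k] at pd)]
    simp [hp.factorization_pow, Nat.factorization_eq_zero_of_not_dvd pd]
  have hC : ∀ u ∈ P, u ≠ 1 → centralizer ({u} : Set G) = P := fun u hu u1 => by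
    have := IsPGroup.isMulCommutative_of_card_eq_prime_sq cP
    refine P.is_maximal' (IsPGroup.iff_card.2 ⟨_, Nat.eq_prime_pow_of_unique_prime_dvd Nat.card_pos.ne'
      fun {r} hr k => by_contra fun rp => ?_⟩) fun x hx => mem_centralizer_singleton_iff.2
        (congrArg Subtype.val (mul_comm' (⟨x, hx⟩ : (P : Subgroup G)) ⟨u, hu⟩))
    have := Fact.mk hr
    obtain ⟨⟨x, hx⟩, ox⟩ := exists_prime_orderOf_dvd_card' r k
    obtain ⟨n, hn⟩ := IsPGroup.iff_orderOf.1 P.isPGroup' ⟨u, hu⟩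
    rw [← orderOf_coe] at ox hn
    have := (show Commute x u from mem_centralizer_singleton_iff.1 hx).orderOf_mul_eq_mul_orderOf_of_coprime
      (by rw [ox, hn]; exact ((Nat.coprime_primes hr hp).2 rp).pow_right n)
    exact no (x * u) r hr rp (this ▸ (hn ▸ dvd_pow_self p (by rintro rfl; simp [u1] at hn)).mul_left _)
      (this ▸ ox ▸ dvd_mul_right _ _)
  rw [← hF, ha] at cP
  have hn : Nat.card (Sylow p G) = a + 1 + 1 := by
    have m := card_sylow_modEq_of_index P (a + 1) fun R k => by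
      rw [subgroupOf_eq_bot.2 (disjoint_def.2 fun h1 h2 => TI_of_cent_le (fun u hu u1 => (hC u hu u1).le) _ _ k _ h2 h1),
        index_bot, cP]
    obtain ⟨k, hk⟩ := (Nat.modEq_iff_dvd' Nat.card_pos).1 m.symm
    have i : (P : Subgroup G).index = b * a := Nat.eq_of_mul_eq_mul_left a.succ_pos
      (by rw [← c1, ← (P : Subgroup G).card_mul_index, cP])
    obtain ⟨l, hl⟩ := (i ▸ P.card_dvd_index).trans (show b * a ∣ (a + 2) * a by rw [hb, mul_assoc]; exact dvd_mul_left _ _)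
    have n0 : 0 < Nat.card (Sylow p G) := Nat.card_pos
    rcases k with _ | _ | k
    · have : Subsingleton (Sylow p G) := Finite.card_le_one_iff_subsingleton.1 (by omega)
      obtain ⟨u, hu, u1⟩ := (bot_or_exists_ne_one (P : Subgroup G)).resolve_left (by rintro k; simp [k] at cP; omega)
      have := Set.ncard_le_ncard (show (ConjClasses.mk u).carrier ⊆ (P : Subgroup G) from fun y hy => by
        obtain ⟨g, rfl⟩ := isConj_iff.1 (ConjClasses.mk_eq_mk_iff_isConj.1 (ConjClasses.mem_carrier_iff_mk_eq.1 hy).symm)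
        exact P.normal_of_subsingleton.conj_mem _ hu g)
      rw [CF.Fgs2.ncard_carrier_mk, hC u hu u1, i, ← Nat.card_coe_set_eq] at this
      have : 2 * a ≤ b * a := Nat.mul_le_mul_right a (by omega)
      have : b * a ≤ a + 1 := cP ▸ ‹b * a ≤ _›
      omega
    · omega
    · rw [show Nat.card (Sylow p G) = (a + 1) * (k + 1 + 1) + 1 by omega] at hl
      have : a + 1 ∣ l + 1 := (Nat.dvd_add_right (dvd_mul_right (a + 1) ((k + 2) * l))).1 ⟨a + 1, by linarith⟩
      have : a ≤ l := Nat.le_of_succ_le_succ (Nat.le_of_dvd l.succ_pos this)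
      nlinarith [Nat.mul_le_mul_left ((a + 1) * (k + 1 + 1) + 1) this, Nat.zero_le (a * a * k), Nat.zero_le (a * k)]
  clear hb
  rcases g2 with ⟨hb, g⟩ | ⟨hb, g⟩
  · obtain rfl : 2 = p := (Nat.prime_dvd_prime_iff_eq Nat.prime_two hp).1
      (Nat.prime_two.dvd_of_dvd_pow (n := 2) (by omega))
    exact psl_of_sylow_even P (fun u hu u1 => (hC u hu u1).le) cP hn (by rw [c1, ← hb]; simp; ring)
      (Nat.card_eq_fintype_card.symm.trans ha)
  have Z := zsetup_of_sylow (fun u hu u1 => (hC u hu u1).le) (cP ▸ hn)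
  obtain ⟨g, ho⟩ := Z.move
  have := Z.card_group ho
  rw [cP, c1, show a + 1 + 1 = 2 * b from hb] at this
  have : a = 2 * Nat.card (stab2 G P (g • P)) := Nat.eq_of_mul_eq_mul_left (show 0 < (a + 1) * b from Nat.mul_pos a.succ_pos (by omega))
    (by nlinarith)
  obtain ⟨-, r, f, hr, -, f1, h1, h2⟩ := ZS.psl_of_even_small Z ho (Nat.even_iff.2 (by omega)) (by omega)
  obtain ⟨K, _, _, hK⟩ := exists_field_card hr f1
  exact (h2 K hK).map2 MulEquiv.trans (CF.CIT.psl_congr (by rw [hK, ← h1, cP, ← ha, Nat.card_eq_fintype_card]))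

end CF.Dg
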